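import Groth.Agent.Fixpt.H903.GlobTr
import Groth.Agent.Fixpt.H903.ToAbExact
import Groth.Agent.CohqB.FinTheoryInst
import Groth.Agent.S0016

/-!
# Formal properties of `FixPt.cohLef` for proper schemes over a field

`X` proper over `Spec k`, `q` with `c ^ q = c` for all `c : k`.  For coherent modules and `q`-semilinear
endomorphisms: additivity in short exact sequences, additivity in the endomorphism, cyclicity, vanishing
for nilpotent endomorphisms.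
-/

set_option autoImplicit false
universe u

open CategoryTheory CategoryTheory.Limits AlgebraicGeometry Opposite TopologicalSpace
open Groth.Agent.Fixpt.H903.TrLin Groth.Agent.Fixpt.H903.ExtTr Groth.Agent.Fixpt.H903.GlobTr

namespace Groth.Agent.Fixpt.H903.PropLef

variable {k : Type u} [Field k] {X : Scheme.{u}} [X.Over (Spec (CommRingCat.of k))]
  [IsProper (X ↘ Spec (CommRingCat.of k))]

theorem finite_VM (M : X.Modules) (hM : Coh.IsCoh M) (i : ℕ) : Module.Finite k (VM k M i) :=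
  GlobTr.finite_VM M i (Groth.Agent.CohqB.FinTheoryInst.allFin (X ↘ Spec (CommRingCat.of k)) M hM i)

variable (k X) in
theorem exists_bound : ∃ N : ℕ, ∀ M : X.Modules, Coh.IsCoh M → ∀ i, N ≤ i → Subsingleton (VM k M i) := by
  have h1 : CompactSpace X := (quasiCompact_iff_compactSpace (X ↘ Spec (CommRingCat.of k))).1 inferInstance
  have h2 : QuasiSeparatedSpace X :=
    (quasiSeparated_iff_quasiSeparatedSpace (X ↘ Spec (CommRingCat.of k))).1 inferInstance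
  obtain ⟨N, hN⟩ := Groth.Agent.S0016.result X
  exact ⟨N, fun M hM i hi => subsingleton_VM M i (hN M hM.1 i hi)⟩

/-- (1) Additivity in short exact sequences. -/
theorem cohLef_additive {q : ℕ} (hq : ∀ c : k, c ^ q = c) (S : ShortComplex X.Modules) (hS : S.ShortExact)
    (hc₁ : Coh.IsCoh S.X₁) (hc₂ : Coh.IsCoh S.X₂) (hc₃ : Coh.IsCoh S.X₃)
    (φ₁ : Coh.toAb S.X₁ ⟶ Coh.toAb S.X₁) (φ₂ : Coh.toAb S.X₂ ⟶ Coh.toAb S.X₂)
    (φ₃ : Coh.toAb S.X₃ ⟶ Coh.toAb S.X₃) (h₁ : IsSemi q φ₁) (h₂ : IsSemi q φ₂) (h₃ : IsSemi q φ₃)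
    (c₁₂ : φ₁ ≫ (toAbF X).map S.f = (toAbF X).map S.f ≫ φ₂)
    (c₂₃ : φ₂ ≫ (toAbF X).map S.g = (toAbF X).map S.g ≫ φ₃) :
    FixPt.cohLef k X S.X₂ φ₂ = FixPt.cohLef k X S.X₁ φ₁ + FixPt.cohLef k X S.X₃ φ₃ := by
  obtain ⟨N, hN⟩ := exists_bound k X
  have := ToAbExact.additive X
  have hS' := ToAbExact.toAb_shortExact S hS
  rw [cohLef_eq_altE φ₁ (h₁.equi hq) (N + 1) (fun i hi => hN _ hc₁ i (by omega)),
    cohLef_eq_altE φ₂ (h₂.equi hq) (N + 1) (fun i hi => hN _ hc₂ i (by omega)),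
    cohLef_eq_altE φ₃ (h₃.equi hq) (N + 1) (fun i hi => hN _ hc₃ i (by omega))]
  exact altE_additive (P := ZX X) hS' (ρ₁ := actM k S.X₁) (ρ₂ := actM k S.X₂) (ρ₃ := actM k S.X₃)
    ((isSemi_of_hom S.f).equi fun c => pow_one c) ((isSemi_of_hom S.g).equi fun c => pow_one c)
    φ₁ φ₂ φ₃ (h₁.equi hq) (h₂.equi hq) (h₃.equi hq) c₁₂ c₂₃
    (finite_VM _ hc₁) (finite_VM _ hc₂) (finite_VM _ hc₃) N (hN _ hc₁ (N + 1) (by omega))

/-- (2) Additivity in the endomorphism. -/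
theorem cohLef_add {q : ℕ} (hq : ∀ c : k, c ^ q = c) (M : X.Modules) (hM : Coh.IsCoh M)
    (φ ψ : Coh.toAb M ⟶ Coh.toAb M) (hφ : IsSemi q φ) (hψ : IsSemi q ψ) :
    FixPt.cohLef k X M (φ + ψ) = FixPt.cohLef k X M φ + FixPt.cohLef k X M ψ := by
  obtain ⟨N, hN⟩ := exists_bound k X
  rw [cohLef_eq_altE φ (hφ.equi hq) N (hN _ hM), cohLef_eq_altE ψ (hψ.equi hq) N (hN _ hM),
    cohLef_eq_altE (φ + ψ) ((hφ.equi hq).add (hψ.equi hq)) N (hN _ hM)]
  unfold altE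
  rw [← Finset.sum_add_distrib]
  refine Finset.sum_congr rfl fun i _ => ?_
  rw [trE_add, mul_add]

/-- (3) Cyclicity. -/
theorem cohLef_comm {q r : ℕ} (hq : ∀ c : k, c ^ q = c) (hr : ∀ c : k, c ^ r = c) (M N : X.Modules)
    (hM : Coh.IsCoh M) (hN : Coh.IsCoh N) (φ : Coh.toAb M ⟶ Coh.toAb N) (ψ : Coh.toAb N ⟶ Coh.toAb M)
    (hφ : IsSemi q φ) (hψ : IsSemi r ψ) :
    FixPt.cohLef k X M (φ ≫ ψ) = FixPt.cohLef k X N (ψ ≫ φ) := by
  rw [cohLef_eq_finsum (φ ≫ ψ) ((hφ.equi hq).comp (hψ.equi hr)),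
    cohLef_eq_finsum (ψ ≫ φ) ((hψ.equi hr).comp (hφ.equi hq))]
  refine finsum_congr fun i => ?_
  have := finite_VM (k := k) M hM i
  have := finite_VM (k := k) N hN i
  exact congrArg _ (trE_comm (P := ZX X) (hφ.equi hq) (hψ.equi hr) i)

/-- (3') Cyclicity for an `O_X`-linear map and a semilinear map. -/
theorem cohLef_comm_hom {q : ℕ} (hq : ∀ c : k, c ^ q = c) (M N : X.Modules)
    (hM : Coh.IsCoh M) (hN : Coh.IsCoh N) (θ : Coh.toAb M ⟶ Coh.toAb N) (hθ : IsSemi q θ) (a : N ⟶ M) :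
    FixPt.cohLef k X M (θ ≫ (toAbF X).map a) = FixPt.cohLef k X N ((toAbF X).map a ≫ θ) :=
  cohLef_comm hq (fun c => pow_one c) M N hM hN θ ((toAbF X).map a) hθ (isSemi_of_hom a)

omit [IsProper (X ↘ Spec (CommRingCat.of k))] in
/-- (4) Vanishing for nilpotent endomorphisms. -/
theorem cohLef_nilpotent {q : ℕ} (hq : ∀ c : k, c ^ q = c) (M : X.Modules)
    (φ : Coh.toAb M ⟶ Coh.toAb M) (hφ : IsSemi q φ) (m : ℕ)
    (h : (show End (Coh.toAb M) from φ) ^ m = 0) : FixPt.cohLef k X M φ = 0 := by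
  rw [cohLef_eq_finsum φ (hφ.equi hq)]
  have : ∀ i : ℕ, (-1 : k) ^ i * trE (ZX X) φ (hφ.equi hq) i = 0 := fun i => by
    rw [trE_nilpotent _ m h, mul_zero]
  simp only [this, finsum_zero]

omit [IsProper (X ↘ Spec (CommRingCat.of k))] in
theorem cohLef_zero (M : X.Modules) : FixPt.cohLef k X M (0 : Coh.toAb M ⟶ Coh.toAb M) = 0 :=
  cohLef_nilpotent (q := 1) (fun c => pow_one c) M 0 (IsSemi.zero 1 M M) 1 (pow_one _)

/-- Invariance under isomorphisms. -/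
theorem cohLef_congr {q : ℕ} (hq : ∀ c : k, c ^ q = c) {M N : X.Modules} (hM : Coh.IsCoh M) (hN : Coh.IsCoh N)
    (e : M ≅ N) (φ : Coh.toAb M ⟶ Coh.toAb M) (ψ : Coh.toAb N ⟶ Coh.toAb N) (hφ : IsSemi q φ)
    (h : φ ≫ (toAbF X).map e.hom = (toAbF X).map e.hom ≫ ψ) :
    FixPt.cohLef k X M φ = FixPt.cohLef k X N ψ := by
  have e1 : φ = (φ ≫ (toAbF X).map e.hom) ≫ (toAbF X).map e.inv := by
    rw [Category.assoc, ← Functor.map_comp, e.hom_inv_id, CategoryTheory.Functor.map_id, Category.comp_id]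
  have e2 : ψ = (toAbF X).map e.inv ≫ (φ ≫ (toAbF X).map e.hom) := by
    rw [h, ← Category.assoc, ← Functor.map_comp, e.inv_hom_id, CategoryTheory.Functor.map_id, Category.id_comp]
  calc FixPt.cohLef k X M φ = FixPt.cohLef k X M ((φ ≫ (toAbF X).map e.hom) ≫ (toAbF X).map e.inv) := by rw [← e1]
    _ = FixPt.cohLef k X N ((toAbF X).map e.inv ≫ (φ ≫ (toAbF X).map e.hom)) :=
        cohLef_comm_hom hq M N hM hN _ (hφ.comp_hom e.hom) e.inv
    _ = FixPt.cohLef k X N ψ := by rw [← e2]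

end Groth.Agent.Fixpt.H903.PropLef
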